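import Cfsg.Agent.H62.FreeCount
import Cfsg.Agent.H94.Transfer
import Cfsg.Agent.H93.Cocycle

/-! The extremal Thompson–Lyons transfer lemma for saturated 2-fusion systems. -/

set_option autoImplicit false

namespace Cfsg.Agent.WZ

open Cfsg Cfsg.FusionSystem Cfsg.Agent.H91 Cfsg.Agent.H62 Cfsg.Agent.H94 Subgroup

variable {Ω : Type*} [Group Ω] {S : Subgroup Ω} {F : FusionSystem S} {X : Type*}
  {ρ : S × S →* Equiv.Perm X}

theorem fix_even [Finite S] [Finite X] (hS : IsPGroup 2 S) (hb : IsStableBiset F ρ) (u : S)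
    (Pr : S → Prop) (h1 : ∀ j s, Pr j → Pr (s * j * s⁻¹))
    (h2 : ∀ j, Pr j → ∃ j' : S, F.IsConjElt j j' ∧
      Nat.card (centralizer ({j} : Set S)) < Nat.card (centralizer ({j'} : Set S))) :
    2 * Nat.card S ∣ {x | ∃ j, Pr j ∧ ρ (u, j) x = x}.ncard := by
  classical
  have : Fact (Nat.Prime 2) := ⟨Nat.prime_two⟩
  have := Fintype.ofFinite S
  let Fx : S → Set X := fun j => {x | ρ (u, j) x = x}
  have hFx : ∀ (P : Subgroup Ω) (f : Ω → Ω), M F P f → ∀ j j' : S, (j : Ω) ∈ P → (j' : Ω) = f j →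
      (Fx j).ncard = (Fx j').ncard := by
    intro P f hf j j' hj hj'
    obtain ⟨e, he⟩ := hb.exists_perm (M.id F le_rfl) hf
    rw [← Set.ncard_image_of_injective _ e.injective]
    congr 1
    ext y
    obtain ⟨x, rfl⟩ := e.surjective y
    rw [e.injective.mem_set_image]
    show ρ (u, j) x = x ↔ ρ (u, j') (e x) = e x
    rw [← he (u, j) (u, j') u.2 hj rfl hj' x, e.injective.eq_iff]
  have hdiv : ∀ j : S, Nat.card (centralizer ({j} : Set S)) ∣ (Fx j).ncard := by
    intro j
    refine card_dvd_ncard_of_free ((ρ.comp (MonoidHom.inr S S)).comp (Subgroup.subtype _))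
      (fun k x e => Subtype.ext (hb.free_right e)) fun k x hx => ?_
    have hk : (k : S) * j = j * k := mem_centralizer_singleton_iff.1 k.2
    show ρ (u, j) (ρ (1, k) x) = ρ (1, k) x
    have hx' : ρ (u, j) x = x := hx
    conv_rhs => rw [← hx']
    rw [rho_mul, rho_mul]; simp [hk]
  let g : S → ℕ := fun j => if Pr j then (Fx j).ncard else 0
  have hsum : 2 * Nat.card S ∣ ∑ j, g j := by
    refine dvd_sum_class g 2 ?_ fun j => ?_
    · intro a b hab
      obtain ⟨c, rfl⟩ := _root_.isConj_iff.1 hab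
      have hiff : Pr a ↔ Pr (c * a * c⁻¹) :=
        ⟨h1 a c, fun h => by simpa [mul_assoc] using h1 _ c⁻¹ h⟩
      simp only [g]
      rw [← hiff, hFx S _ (M.conj F le_rfl c.2) a (c * a * c⁻¹) a.2 rfl]
    · simp only [g]
      split_ifs with hj
      · obtain ⟨j', hc, hlt⟩ := h2 j hj
        obtain ⟨k, hk, e⟩ := isConjElt_iff.1 hc
        rw [hFx _ k hk j j' (mem_zpowers _) e.symm]
        refine dvd_trans ?_ (hdiv j')
        obtain ⟨a, ha⟩ := (hS.to_subgroup (centralizer ({j} : Set S))).exists_card_eq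
        obtain ⟨b, hb'⟩ := (hS.to_subgroup (centralizer ({j'} : Set S))).exists_card_eq
        rw [ha, hb'] at hlt ⊢
        rw [← pow_succ']
        exact pow_dvd_pow 2 ((Nat.pow_lt_pow_iff_right (by norm_num)).1 hlt)
      · exact dvd_zero _
  have e : {x | ∃ j, Pr j ∧ ρ (u, j) x = x} = ⋃ j : S, (if Pr j then Fx j else ∅) := by
    ext x
    simp only [Set.mem_iUnion, Set.mem_ofPred_eq]
    refine exists_congr fun j => ?_
    split_ifs with hj <;> simp [hj, Fx]
  rw [e, Set.ncard_iUnion_of_finite (fun _ => Set.toFinite _), finsum_eq_sum_of_fintype]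
  · convert hsum using 2 with j
    simp only [g]; split_ifs <;> simp
  · intro a b hab
    rw [Function.onFun, Set.disjoint_left]
    intro x ha hb'
    split_ifs at ha hb' with h1 h2
    · refine hab (hb.right_inj (x := ρ (u, 1) x) ?_)
      have ha' : ρ (u, a) x = x := ha
      have hb'' : ρ (u, b) x = x := hb'
      rw [rho_mul, rho_mul]; simpa [ha'] using hb''.symm
    all_goals simp_all

/-- Extremal transfer: if `f` takes the value `f u` on every extremal conjugate of the involution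
`u` of the focal subgroup, then `f u = 1`. -/
theorem ett {Ω : Type*} [Group Ω] {S : Subgroup Ω} {F : FusionSystem S} [Finite S]
    (hS : IsPGroup 2 S) (hF : F.IsSaturated 2) {A : Type*} [CommGroup A] (f : S →* A) (u : S)
    (hu : u * u = 1) (hfoc : (u : Ω) ∈ F.focalSubgroup)
    (h : ∀ j : S, F.IsConjElt u j → (∀ j' : S, F.IsConjElt j j' →
      Nat.card (centralizer ({j'} : Set S)) ≤ Nat.card (centralizer ({j} : Set S))) → f j = f u) :
    f u = 1 := by
  classical
  have : Fact (Nat.Prime 2) := ⟨Nat.prime_two⟩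
  obtain ⟨X, _, ρ, hb, -, m, hm, hpm⟩ := exists_charBiset hS hF
  obtain ⟨r, c, hc, hr⟩ := H93.exists_orbit_rep (ρ.comp (MonoidHom.inr S S))
  have hc : ∀ x, ρ (1, c x) (r x) = x := hc
  have hr : ∀ s x, r (ρ (1, s) x) = r x := hr
  have mul : ∀ a b c d : S, ∀ x, ρ (a, b) (ρ (c, d) x) = ρ (a * c, b * d) x := fun a b c d x => by
    rw [rho_mul]; rfl
  have one : ∀ x, ρ (1, 1) x = x := fun x => by
    rw [show ((1, 1) : S × S) = 1 from rfl, map_one]; rfl
  have mul1 : ∀ a b : S, ∀ x, ρ (1, a) (ρ (1, b) x) = ρ (1, a * b) x := fun a b x => by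
    rw [mul, one_mul]
  have rr : ∀ x, r (r x) = r x := fun x => by rw [← hr (c x), hc]
  have cm : ∀ s x, c (ρ (1, s) x) = s * c x := fun s x => hb.right_inj (x := r x) (by
    rw [← mul1, hc, ← hr s x, hc])
  let Y := {y // r y = y}
  have := Fintype.ofFinite Y
  have c1 : ∀ y : Y, c y = 1 := fun y => hb.free_right (x := y.1) (by
    have := hc y.1; rwa [y.2] at this)
  let π : bisetGroup ρ → Y → Y := fun g y => ⟨r (g.1 y), rr _⟩
  have πb : ∀ g, Function.Bijective (π g) := fun g => Finite.injective_iff_bijective.1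
    fun y y' e => by
      have e1 : r (g.1 y) = r (g.1 y') := congrArg Subtype.val e
      have e2 : g.1 y = g.1 (ρ (1, c (g.1 y) * (c (g.1 y'))⁻¹) y') := by
        have e3 : ρ (1, (c (g.1 y'))⁻¹) (g.1 y') = r (g.1 y) := by
          have := congrArg (ρ (1, (c (g.1 y'))⁻¹)) (hc (g.1 y'))
          rw [← this, mul1, inv_mul_cancel, one, e1]
        rw [g.2, ← mul1, e3, hc]
      exact Subtype.ext (by rw [← y.2, g.1.injective e2, hr, y'.2])
  have coc : ∀ (g g' : bisetGroup ρ) (y : Y),
      c ((g * g').1 y) = c (g'.1 y) * c (g.1 (π g' y)) := fun g g' y => by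
    rw [← cm, ← g.2, hc]; rfl
  let τ : bisetGroup ρ →* A := MonoidHom.mk' (fun g => ∏ y : Y, f (c (g.1 y))) fun g g' => by
    simp only [coc, map_mul, Finset.prod_mul_distrib]
    rw [(πb g').prod_comp fun y => f (c (g.1 y)), mul_comm]
  have hker : F.focalSubgroup ≤ (τ.comp (bisetHom ρ)).ker.map S.subtype := by
    refine H93.focal_le_iff.2 fun P φ hφ x hx => ?_
    obtain ⟨g, hg⟩ := hb.exists_conj hφ
    refine ⟨(⟨x, hφ.le hx⟩ : S)⁻¹ * ⟨φ x, hφ.mem hx⟩, ?_, rfl⟩
    rw [SetLike.mem_coe, MonoidHom.mem_ker, map_mul, map_inv, MonoidHom.comp_apply,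
      MonoidHom.comp_apply, hg ⟨x, hφ.le hx⟩ ⟨φ x, hφ.mem hx⟩ hx rfl, map_mul, map_mul, map_inv,
      mul_inv_cancel_comm, inv_mul_cancel]
  obtain ⟨u', hu', e⟩ := hker hfoc
  obtain rfl : u' = u := Subtype.ext e
  let U := bisetHom ρ u'
  have hU : U * U = 1 := by rw [← map_mul, hu, map_one]
  let k : Y → S := fun y => c (U.1 y)
  have t1 : ∏ y, f (k y) = 1 := hu'
  have kk : ∀ y, k y * k (π U y) = 1 := fun y => by
    have := coc U U y
    rw [hU] at this
    exact this.symm.trans (c1 y)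
  have ππ : ∀ y, π U (π U y) = y := fun y => Subtype.ext (by
    show r (U.1 (r (U.1 y))) = y
    rw [← hr (c (U.1 y)), ← U.2, hc, ← Equiv.Perm.mul_apply, ← Subgroup.coe_mul, hU]
    exact y.2)
  have f2 : f u' * f u' = 1 := by rw [← map_mul, hu, map_one]
  have cnt : ∀ V : Set Y, {x | (⟨r x, rr x⟩ : Y) ∈ V}.ncard = V.ncard * Nat.card S := fun V => by
    rw [← Nat.card_coe_set_eq, ← Nat.card_coe_set_eq, ← Nat.card_prod]
    refine Nat.card_congr
      ⟨fun x => (⟨_, x.2⟩, c x), fun z => ⟨ρ (1, z.2) z.1.1, ?_⟩, fun x => Subtype.ext (hc x), ?_⟩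
    · show (⟨r (ρ (1, z.2) z.1.1), _⟩ : Y) ∈ V
      simp only [hr, z.1.1.2]; exact z.1.2
    · rintro ⟨⟨y, hy⟩, s⟩
      refine Prod.ext (Subtype.ext (Subtype.ext ?_)) ?_
      · exact (hr _ _).trans y.2
      · show c (ρ (1, s) y) = s
        rw [cm, c1, mul_one]
  have hY : Fintype.card Y = m := by
    have := cnt Set.univ
    simp only [Set.mem_univ, Set.ofPred_true, Set.ncard_univ] at this
    rw [← Nat.card_eq_fintype_card]
    exact Nat.eq_of_mul_eq_mul_right Nat.card_pos (this.symm.trans hm)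
  have fixk : ∀ y, π U y = y → ρ (u', k y) y = y := fun y e => by
    have e1 : r (U.1 y) = y := congrArg Subtype.val e
    have e2 := hc (U.1 y)
    have e3 := kk y
    rw [e] at e3
    rw [e1] at e2
    have e4 : ρ (1, k y) (ρ (u', 1) y) = y := by
      rw [← bisetHom_apply, ← e2, mul1, e3, one]
    rwa [mul, one_mul, mul_one] at e4
  let g : Y → A := fun y => f (k y) * f u'
  have hg : ∏ y, g y = 1 := by
    rw [← Finset.prod_filter_mul_prod_filter_not Finset.univ fun y => π U y = y,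
      Finset.prod_involution (s := Finset.univ.filter fun y => ¬ π U y = y) (fun y _ => π U y)
        (fun y _ => by
          simp only [g]
          rw [mul_mul_mul_comm, ← map_mul, kk, f2, map_one, one_mul])
        (fun y hy _ => (Finset.mem_filter.1 hy).2)
        (fun y hy => Finset.mem_filter.2 ⟨Finset.mem_univ _, fun e =>
          (Finset.mem_filter.1 hy).2 (e.symm.trans (ππ y))⟩)
        (fun y _ => ππ y), mul_one]
    refine (Finset.prod_comp id g).trans (Finset.prod_eq_one fun b hb' => ?_)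
    by_cases b1 : b = 1
    · simp [b1]
    obtain ⟨y, hy, rfl⟩ := Finset.mem_image.1 hb'
    have ky := kk y
    rw [(Finset.mem_filter.1 hy).2] at ky
    have key := fix_even hS hb u' (fun j => F.IsConjElt u' j ∧ f j * f u' = g y)
      (fun j s hj => by
        obtain ⟨φ, hφ, e⟩ := isConjElt_iff.1 hj.1
        refine ⟨?_, by rw [map_mul, map_mul, map_inv, mul_inv_cancel_comm, hj.2]⟩
        have := (hφ.conj_comp s.2).isConjElt (mem_zpowers _)
        rwa [e] at this)
      (fun j hj => by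
        by_contra hn
        push Not at hn
        exact b1 (by rw [← hj.2, h j hj.1 hn, f2]))
    have e : {x | ∃ j : S, (F.IsConjElt u' j ∧ f j * f u' = g y) ∧ ρ (u', j) x = x} =
        {x | (⟨r x, rr x⟩ : Y) ∈ {y' | π U y' = y' ∧ g y' = g y}} := by
      ext x
      constructor
      · rintro ⟨j, ⟨-, h2⟩, h3⟩
        have e1 : U.1 (r x) = ρ (1, (c x)⁻¹ * j⁻¹ * c x) (r x) := by
          have a1 := hc x
          generalize c x = s at a1 ⊢
          generalize r x = w at a1 ⊢
          subst a1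
          rw [mul, mul_one] at h3
          apply (ρ (1, j * s)).injective
          rw [bisetHom_apply, mul, mul1, one_mul, mul_one, h3]
          congr 3; group
        have e2 : π U ⟨r x, rr x⟩ = ⟨r x, rr x⟩ := Subtype.ext (by
          show r (U.1 (r x)) = r x
          rw [e1, hr, rr])
        have e3 : k ⟨r x, rr x⟩ = (c x)⁻¹ * j⁻¹ * c x := by
          show c (U.1 (r x)) = _
          rw [e1, cm, c1 ⟨_, rr x⟩, mul_one]
        have e4 := congrArg f (kk ⟨r x, rr x⟩)
        rw [e2, e3, map_one, map_mul] at e4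
        refine ⟨e2, ?_⟩
        rw [← h2]
        show f (k _) * _ = _
        rw [e3, eq_inv_of_mul_eq_one_left e4]
        simp
      · rintro ⟨h1, h2⟩
        have e1 := fixk _ h1
        obtain ⟨P, φ, hφ, hP⟩ := hb.gen (r x)
        obtain ⟨m1, m2⟩ := (hP (u', k ⟨r x, rr x⟩)).1 e1
        refine ⟨c x * k ⟨r x, rr x⟩ * (c x)⁻¹, ⟨?_, ?_⟩, ?_⟩
        · have := (hφ.conj_comp (c x).2).isConjElt m1
          rwa [m2] at this
        · rw [map_mul, map_mul, map_inv, mul_inv_cancel_comm]; exact h2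
        · have e2 : ρ (u', k ⟨r x, rr x⟩) (r x) = r x := e1
          have a1 := hc x
          generalize k ⟨r x, rr x⟩ = l at e2 ⊢
          generalize c x = s at a1 ⊢
          generalize r x = w at a1 e2
          subst a1
          rw [mul, mul_one, inv_mul_cancel_right, ← one_mul u', ← mul, e2]
    rw [e, cnt] at key
    obtain ⟨l, hl⟩ := Nat.dvd_of_mul_dvd_mul_right Nat.card_pos key
    have e' : (Finset.filter (fun a => g a = g y)
        (Finset.filter (fun y => π U y = y) Finset.univ)).card = 2 * l := by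
      rw [← hl, ← Set.ncard_coe_finset]
      congr 1
      ext y'; simp
    rw [e', pow_mul, sq, id]
    simp only [g]
    rw [mul_mul_mul_comm, ← map_mul, ky, f2, map_one, one_mul, one_pow]
  simp only [g] at hg
  obtain ⟨l, rfl⟩ := Nat.odd_iff.2 (Nat.two_dvd_ne_zero.1 hpm)
  rwa [Finset.prod_mul_distrib, t1, Finset.prod_const, Finset.card_univ, hY, one_mul, pow_succ,
    pow_mul, sq, f2, one_pow, one_mul] at hg

theorem card_cent_top {G : Type*} [Group G] (j : (⊤ : Subgroup G)) :
    Nat.card (centralizer ({j} : Set (⊤ : Subgroup G))) = Nat.card (centralizer ({j.1} : Set G)) :=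
  Nat.card_congr ⟨fun x => ⟨x.1.1, mem_centralizer_singleton_iff.2
      (congrArg Subtype.val (mem_centralizer_singleton_iff.1 x.2))⟩,
    fun x => ⟨⟨x.1, trivial⟩, mem_centralizer_singleton_iff.2
      (Subtype.ext (mem_centralizer_singleton_iff.1 x.2))⟩, fun _ => rfl, fun _ => rfl⟩

theorem ett_top {G : Type*} [Group G] [Finite G] {F : FusionSystem (⊤ : Subgroup G)}
    (hS : IsPGroup 2 (⊤ : Subgroup G)) (hF : F.IsSaturated 2) (N : Subgroup G)
    (hN : ∀ x y, x * y * x⁻¹ * y⁻¹ ∈ N) {u : G} (hu : u * u = 1) (hfoc : u ∈ F.focalSubgroup)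
    (h : ∀ j, F.IsConjElt u j → (∀ j', F.IsConjElt j j' →
      Nat.card (centralizer ({j'} : Set G)) ≤ Nat.card (centralizer ({j} : Set G))) →
      u⁻¹ * j ∈ N) : u ∈ N := by
  have : N.Normal := ⟨fun x hx g => by simpa using mul_mem (hN g x) hx⟩
  have hc : ∀ x y : G ⧸ N, x * y = y * x := fun x y => by
    obtain ⟨x, rfl⟩ := QuotientGroup.mk_surjective x
    obtain ⟨y, rfl⟩ := QuotientGroup.mk_surjective y
    rw [← QuotientGroup.mk_mul, ← QuotientGroup.mk_mul, QuotientGroup.eq]
    simpa [mul_assoc] using hN y⁻¹ x⁻¹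
  let _ : CommGroup (G ⧸ N) := { mul_comm := hc }
  exact (QuotientGroup.eq_one_iff u).1 (ett hS hF ((QuotientGroup.mk' N).comp (⊤ : Subgroup G).subtype)
    ⟨u, trivial⟩ (Subtype.ext hu) hfoc fun j h1 h2 => (QuotientGroup.eq.2 (h j h1 fun j' h3 => by
      have := h2 ⟨j', trivial⟩ h3
      rwa [card_cent_top, card_cent_top] at this)).symm)

end Cfsg.Agent.WZ
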